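import Mathlib

/-!
# BH (S4524), box V4: an action with four classes (helper97)
-/

set_option autoImplicit false
set_option linter.unusedSectionVars false

namespace Cfsg.Agent.BH.V4

open MulAction Subgroup
open scoped commutatorElement

theorem p3a : ∀ (σ : Equiv.Perm (Fin 3)) (i : Fin 3), σ i = i → σ ^ 2 = 1 := by decide

theorem p3b : ∀ (σ τ : Equiv.Perm (Fin 3)) (i : Fin 3), τ ≠ 1 → τ i = i → σ i ≠ i → ⁅σ, τ⁆ ≠ 1 ∧ ⁅σ, τ⁆ ^ 3 = 1 := by
  decide +kernel

variable {A L X : Type} [Group A] [MulAction A X]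

/-- an orbit of length three -/
theorem three {x : X} (h : (orbit A x).ncard = 3) {α : A} {k : ℕ} (hα : α ^ 2 ^ k = 1) (hx : α • x ≠ x) :
    ∃ W : Subgroup A, (∀ a, (∀ y : X, a • y = y) → a ∈ W) ∧ (∃ a b : A, ∀ m : ℕ, ⁅a, b⁆ ^ m ∈ W → 3 ∣ m) ∧
      ∀ (δ : A) (j : ℕ), δ ^ 3 ^ j = 1 → δ ∉ W → ∀ y ∈ orbit A x, (stabilizer A y).relIndex (zpowers δ) = 3 := by
  have : Finite (orbit A x) := (Set.finite_of_ncard_pos (by rw [h]; norm_num)).to_subtype
  let e : orbit A x ≃ Fin 3 := Finite.equivFinOfCardEq h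
  let φ : A →* Equiv.Perm (Fin 3) := e.permCongrHom.toMonoidHom.comp (toPermHom A (orbit A x))
  have h1 : ∀ (a : A) (o : orbit A x), φ a (e o) = e o ↔ a • (o : X) = o := fun a o => by
    show e (a • e.symm (e o)) = e o ↔ _
    rw [e.symm_apply_apply, e.apply_eq_iff_eq, Subtype.ext_iff]
    rfl
  have : Fact (Nat.Prime 3) := ⟨Nat.prime_three⟩
  refine ⟨φ.ker, fun a ha => Equiv.ext fun i => ?_, ?_, fun δ j hj hδ y hy => ?_⟩
  · obtain ⟨o, rfl⟩ := e.surjective i
    exact (h1 a o).2 (ha o)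
  · obtain ⟨i, hi⟩ := Equiv.Perm.exists_fixed_point_of_prime (p := 2) (n := k) (σ := φ α) (by simp)
      (by rw [← map_pow, hα, map_one])
    obtain ⟨⟨_, c, rfl⟩, rfl⟩ := e.surjective i
    obtain ⟨h2, h3⟩ := p3b (φ (c * α * c⁻¹)) (φ α) _
      (fun h2 => hx ((h1 α ⟨x, mem_orbit_self x⟩).1 (by rw [h2]; rfl))) hi fun h2 => hx (by simpa [mul_smul] using (h1 _ _).1 h2)
    refine ⟨c * α * c⁻¹, α, fun m hm => ?_⟩
    rw [MonoidHom.mem_ker, map_pow, map_commutatorElement] at hm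
    rw [← orderOf_eq_prime h3 h2]
    exact orderOf_dvd_of_pow_eq_one hm
  · have h2 : (stabilizer A y).relIndex ⊤ = 3 := by
      rw [relIndex_top_right, index_stabilizer, orbit_eq_iff.2 hy, h]
    have h3 := relIndex_le_of_le_right (H := stabilizer A y) (K := zpowers δ) le_top (by rw [h2]; norm_num)
    obtain ⟨i, -, h4⟩ := (Nat.dvd_prime_pow Nat.prime_three).1 ((relIndex_dvd_card (stabilizer A y) (zpowers δ)).trans
      ((Nat.card_zpowers δ).symm ▸ orderOf_dvd_of_pow_eq_one hj))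
    rw [h2, h4] at h3
    have h5 : i ≤ 1 := (Nat.pow_le_pow_iff_right (by norm_num : 1 < 3)).1 h3
    interval_cases i
    · have h6 := p3a (φ δ) _ ((h1 δ ⟨y, hy⟩).2 (relIndex_eq_one.1 h4 (mem_zpowers δ)))
      have h7 := pow_gcd_eq_one.2 ⟨h6, show φ δ ^ 3 ^ j = 1 by rw [← map_pow, hj, map_one]⟩
      rw [Nat.Coprime.gcd_eq_one (Nat.Coprime.pow_right j (by norm_num)), pow_one] at h7
      exact absurd h7 hδ
    · exact h4

variable [Group L] [Fintype L] [Fintype X] [MulAction L X]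

/-- an orbit of odd length meets every class at most once -/
theorem once (cm : ∀ (a : A) (l : L) (x : X), a • l • x = l • a • x) (hL : IsPGroup 2 L)
    (fr : ∀ (l : L) (x : X), l • x = x → l = 1) {x : X} (od : ¬ 2 ∣ (stabilizer A x).index) {a : A} {l : L}
    (h : l • x = a • x) : l = 1 := by
  classical
  let f : orbit A x → orbit A x := fun o => ⟨l • o.1, by
    obtain ⟨_, c, rfl⟩ := o
    exact ⟨c * a, by simp only [mul_smul, ← h, cm]⟩⟩
  have hf : Function.Injective f := fun o o' h1 => Subtype.ext (MulAction.injective l (congrArg Subtype.val h1))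
  let φ : Equiv.Perm (orbit A x) := Equiv.ofBijective f (Finite.injective_iff_bijective.1 hf)
  have h1 : ∀ (n : ℕ) (o : orbit A x), ((φ ^ n) o).1 = l ^ n • o.1 := fun n => by
    induction n with
    | zero => intro o; simp
    | succ n ih => intro o; rw [pow_succ, Equiv.Perm.mul_apply, ih, pow_succ, mul_smul]; rfl
  obtain ⟨k, hk⟩ := hL l
  obtain ⟨o, ho⟩ := Equiv.Perm.exists_fixed_point_of_prime (p := 2) (n := k) (σ := φ)
    (by rwa [← Nat.card_eq_fintype_card, Nat.card_coe_set_eq, ← index_stabilizer])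
    (Equiv.ext fun o => Subtype.ext (by rw [h1, hk, one_smul]; rfl))
  exact fr l o.1 (congrArg Subtype.val ho)

open Classical in
variable (L) in
/-- the union of the classes of the members of `S` -/
noncomputable def sat (S : Finset X) : Finset X := (Finset.univ ×ˢ S).image fun q : L × X => q.1 • q.2

theorem mem_sat {S : Finset X} {y : X} : y ∈ sat L S ↔ ∃ l : L, ∃ s ∈ S, l • s = y := by
  simp [sat]

theorem card_sat {S : Finset X} (h : ∀ s ∈ S, ∀ s' ∈ S, ∀ l : L, l • s = s' → l = 1) :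
    (sat L S).card = Fintype.card L * S.card := by
  classical
  rw [← Finset.card_univ, ← Finset.card_product, sat]
  refine Finset.card_image_of_injOn fun q hq q' hq' h1 => ?_
  have h2 : (q'.1⁻¹ * q.1) • q.2 = q'.2 := by rw [mul_smul, show q.1 • q.2 = q'.1 • q'.2 from h1, inv_smul_smul]
  have h3 := h _ (Finset.mem_product.1 hq).2 _ (Finset.mem_product.1 hq').2 _ h2
  rw [h3, one_smul] at h2
  exact Prod.ext (inv_mul_eq_one.1 h3).symm h2

theorem four (cm : ∀ (a : A) (l : L) (x : X), a • l • x = l • a • x) (hL : IsPGroup 2 L)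
    (fr : ∀ (l : L) (x : X), l • x = x → l = 1) (od : ∀ x : X, ¬ 2 ∣ (stabilizer A x).index) {d : X → ℕ} {z : X → ℤ}
    (d0 : ∀ x, 0 < d x) (z0 : ∀ x, z x ≠ 0) (dA : ∀ (a : A) x, d (a • x) = d x ∧ z (a • x) = z x)
    (dL : ∀ (l : L) x, d (l • x) = d x ∧ z (l • x) = z x) (s1 : ∑ x, z x ^ 2 = 4 * Fintype.card L)
    (s2 : ∑ x, d x * z x = 0) {α : A} {k : ℕ} (hα : α ^ 2 ^ k = 1)
    (hf : {x : X | α • x = x}.ncard < 4 * Fintype.card L) :
    ∃ W : Subgroup A, (∀ a, (∀ y : X, a • y = y) → a ∈ W) ∧ (∃ a b : A, ∀ m : ℕ, ⁅a, b⁆ ^ m ∈ W → 3 ∣ m) ∧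
      ∀ (δ : A) (j : ℕ), δ ^ 3 ^ j = 1 → δ ∉ W → (∃ x : X, δ • x = x) ∧
        ∃ c : ℕ, ∀ x : X, (stabilizer A x).relIndex (zpowers δ) * d x = c := by
  classical
  have n0 : (0 : ℤ) < Fintype.card L := by exact_mod_cast Fintype.card_pos
  have c1 : ∀ x : X, (sat L {x}).card = Fintype.card L := fun x => by
    rw [card_sat fun s hs s' hs' l h => fr l s (by rwa [Finset.mem_singleton.1 hs', ← Finset.mem_singleton.1 hs] at h),
      Finset.card_singleton, mul_one]
  have c2 : ∀ (x : X) (F : ℕ → ℤ → ℤ), ∑ y ∈ sat L {x}, F (d y) (z y) = Fintype.card L * F (d x) (z x) := fun x F => by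
    rw [Finset.sum_congr rfl (g := fun _ => F (d x) (z x)) fun y hy => ?_, Finset.sum_const, c1, nsmul_eq_mul]
    obtain ⟨l, s, hs, rfl⟩ := mem_sat.1 hy
    rw [Finset.mem_singleton.1 hs, (dL l x).1, (dL l x).2]
  have z1 : ∀ x, z x = 1 ∨ z x = -1 := fun x => by
    by_contra h
    have h1 : 4 ≤ z x ^ 2 := by
      have := z0 x
      rcases (by omega : 2 ≤ z x ∨ z x ≤ -2) with h2 | h2 <;> nlinarith
    have h2 : sat L {x} = Finset.univ := by
      by_contra h2
      obtain ⟨y, hy⟩ : ∃ y, y ∉ sat L {x} := not_forall.1 fun h3 => h2 (Finset.eq_univ_of_forall h3)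
      have h3 := Finset.sum_lt_sum_of_subset (f := fun y => z y ^ 2) (Finset.subset_univ _) (Finset.mem_univ y) hy
        (pow_pos (abs_pos.2 (z0 y)) 2 |>.trans_eq (sq_abs _)) fun _ _ _ => sq_nonneg _
      rw [c2 x fun _ b => b ^ 2, s1] at h3
      nlinarith
    rw [← h2, c2 x fun a b => a * b, mul_eq_zero, mul_eq_zero] at s2
    have := d0 x
    have := z0 x
    omega
  have c3 : Fintype.card X = 4 * Fintype.card L := by
    rw [Finset.sum_congr rfl (g := fun _ => 1) fun x _ => by rcases z1 x with h | h <;> simp [h], Finset.sum_const,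
      Finset.card_univ, nsmul_eq_mul, mul_one] at s1
    exact_mod_cast s1
  obtain ⟨x, hx⟩ : ∃ x : X, α • x ≠ x := by
    by_contra h
    push Not at h
    rw [show {x : X | α • x = x} = Set.univ from Set.eq_univ_of_forall h, Set.ncard_univ, Nat.card_eq_fintype_card, c3] at hf
    exact lt_irrefl _ hf
  set O := (orbit A x).toFinset with hO
  have c4 : (sat L O).card = Fintype.card L * O.card := card_sat fun s hs s' hs' l h => by
    obtain ⟨c, rfl⟩ := Set.mem_toFinset.1 hs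
    obtain ⟨c', rfl⟩ := Set.mem_toFinset.1 hs'
    exact once cm hL fr (od (c • x)) (a := c' * c⁻¹) (by simpa [mul_smul] using h)
  have c5 : O.card = 3 := by
    have h1 := od x
    rw [index_stabilizer, Set.ncard_eq_toFinset_card', ← hO] at h1
    have h2 : 1 < O.card := Finset.one_lt_card.2 ⟨_, Set.mem_toFinset.2 (mem_orbit x α), _,
      Set.mem_toFinset.2 (mem_orbit_self x), hx⟩
    have h3 : O.card ≤ 4 := Nat.le_of_mul_le_mul_left (by
      rw [← c4, mul_comm, ← c3]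
      exact Finset.card_le_univ _) (Fintype.card_pos (α := L))
    omega
  have c6 : (sat L O)ᶜ.card = Fintype.card L := by
    rw [Finset.card_compl, c4, c5, c3]
    omega
  obtain ⟨x₀, h0⟩ := Finset.card_pos.1 (c6 ▸ Fintype.card_pos (α := L))
  have c7 : sat L {x₀} = (sat L O)ᶜ := Finset.eq_of_subset_of_card_le (fun y hy => Finset.mem_compl.2 fun h => by
    obtain ⟨l, s, hs, rfl⟩ := mem_sat.1 hy
    obtain ⟨l', s', hs', h1⟩ := mem_sat.1 h
    exact Finset.mem_compl.1 h0 (mem_sat.2 ⟨l⁻¹ * l', s', hs', by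
      rw [mul_smul, h1, inv_smul_smul, Finset.mem_singleton.1 hs]⟩)) (by rw [c6, c1])
  have c8 : ∀ a : A, a • x₀ = x₀ := fun a => by
    obtain ⟨l, s, hs, h1⟩ := mem_sat.1 (c7.ge (Finset.mem_compl.2 fun h => by
      obtain ⟨l', s', hs', h1⟩ := mem_sat.1 h
      obtain ⟨c, rfl⟩ := Set.mem_toFinset.1 hs'
      exact Finset.mem_compl.1 h0 (mem_sat.2 ⟨l', _, Set.mem_toFinset.2 (mem_orbit x (a⁻¹ * c)), by
        rw [mul_smul, ← cm, h1, inv_smul_smul]⟩)) : a • x₀ ∈ _)
    rw [Finset.mem_singleton.1 hs] at h1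
    rw [← h1, once cm hL fr (od _) h1, one_smul]
  have c9 : ∀ y ∈ sat L O, d y = d x ∧ z y = z x := fun y hy => by
    obtain ⟨l, s, hs, rfl⟩ := mem_sat.1 hy
    obtain ⟨c, rfl⟩ := Set.mem_toFinset.1 hs
    exact ⟨(dL l _).1.trans (dA c x).1, (dL l _).2.trans (dA c x).2⟩
  have c10 : d x₀ = 3 * d x := by
    rw [← Finset.sum_add_sum_compl (sat L O), ← c7, c2 x₀ fun a b => a * b, Finset.sum_congr rfl
      (g := fun _ => d x * z x) fun y hy => by rw [(c9 y hy).1, (c9 y hy).2], Finset.sum_const, c4, c5, nsmul_eq_mul,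
      Nat.cast_mul, mul_assoc, ← mul_add, mul_eq_zero, or_iff_right n0.ne'] at s2
    have := d0 x
    have := d0 x₀
    rcases z1 x with h | h <;> rcases z1 x₀ with h' | h' <;> rw [h, h'] at s2 <;> omega
  have st : ∀ (l : L) (y : X), stabilizer A (l • y) = stabilizer A y := fun l y => Subgroup.ext fun a => by
    rw [mem_stabilizer_iff, mem_stabilizer_iff, cm, smul_left_cancel_iff]
  obtain ⟨W, w1, w2, w3⟩ := three (by rw [Set.ncard_eq_toFinset_card', c5]) hα hx
  refine ⟨W, w1, w2, fun δ j hj hδ => ⟨⟨x₀, c8 δ⟩, 3 * d x, fun y => ?_⟩⟩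
  by_cases hy : y ∈ sat L O
  · rw [(c9 y hy).1]
    obtain ⟨l, s, hs, rfl⟩ := mem_sat.1 hy
    rw [st, w3 δ j hj hδ s (Set.mem_toFinset.1 hs)]
  · obtain ⟨l, s, hs, rfl⟩ := mem_sat.1 (c7.ge (Finset.mem_compl.2 hy))
    rw [Finset.mem_singleton.1 hs, st, (dL l x₀).1, relIndex_eq_one.2 fun a _ => c8 a, one_mul, c10]

end Cfsg.Agent.BH.V4
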