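import Cfsg.Agent.H650.AnnChar

/-!
# BH (S4524), box V4: a group of odd order which centralizes a subgroup of index at most four (helper97)
-/

set_option autoImplicit false
set_option linter.unusedSectionVars false

namespace Cfsg.Agent.BH.V4

open Cfsg.Agent.H650

/-- `γ` normalises `E` and fixes its fixed points -/
def Nz {Q : Type} [Group Q] (E : Subgroup (MulAut Q)) (γ : MulAut Q) : Prop :=
  (∀ e ∈ E, γ * e * γ⁻¹ ∈ E) ∧ ∀ z, (∀ e ∈ E, e z = z) → γ z = z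

theorem Nz.of_mem {Q : Type} [Group Q] {E : Subgroup (MulAut Q)} {e : MulAut Q} (he : e ∈ E) : Nz E e :=
  ⟨fun _ hf => mul_mem (mul_mem he hf) (inv_mem he), fun _ hz => hz e he⟩

section comm

variable {Q : Type} [CommGroup Q] [Finite Q] {E : Subgroup (MulAut Q)}

theorem odd_fix (hE : ¬ 2 ∣ Nat.card E) {e : MulAut Q} (he : e ∈ E) {x : Q} (h : e (e x) = x) : e x = x := by
  obtain ⟨k, hk⟩ := Nat.odd_iff.2 (Nat.two_dvd_ne_zero.1 hE)
  have h1 : ∀ n : ℕ, (e ^ (2 * n)) x = x := fun n => by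
    induction n with
    | zero => rfl
    | succ n ih => rw [mul_add, mul_one, pow_add, pow_two, MulAut.mul_apply, MulAut.mul_apply, h, ih]
  have h2 : (⟨e, he⟩ : E) ^ (2 * k + 1) = 1 := hk ▸ pow_card_eq_one'
  have h3 : (e ^ (2 * k + 1)) x = e x := by rw [pow_succ', MulAut.mul_apply, h1]
  rw [← h3, show e ^ (2 * k + 1) = 1 from congrArg Subtype.val h2, MulAut.one_apply]

/-- the norm -/
noncomputable def nm (E : Subgroup (MulAut Q)) [Fintype E] : Q →* Q := ∏ e : E, (e : MulAut Q).toMonoidHom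

theorem nm_apply [Fintype E] (x : Q) : nm E x = ∏ e : E, (e : MulAut Q) x := MonoidHom.finsetProd_apply _ _ _

theorem nm_fix [Fintype E] (x : Q) : ∀ e ∈ E, e (nm E x) = nm E x := fun e he => by
  rw [nm_apply, map_prod]
  exact Fintype.prod_equiv (Equiv.mulLeft ⟨e, he⟩) _ _ fun _ => rfl

theorem nm_nz [Fintype E] {γ : MulAut Q} (h : Nz E γ) (x : Q) : nm E (γ x) = nm E x := by
  rw [← h.2 _ (nm_fix x), nm_apply, nm_apply, map_prod]
  refine (Fintype.prod_bijective (fun e : E => (⟨_, h.1 e e.2⟩ : E)) (Finite.injective_iff_bijective.1 fun e e' h1 =>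
    Subtype.ext (mul_left_cancel (mul_right_cancel (congrArg Subtype.val h1)))) _ _ fun e => ?_).symm
  simp

theorem four_el {V : Subgroup Q} (hV : Nat.card V ≤ 4) {v w : Q} (hv : v ∈ V) (hw : w ∈ V) (v1 : v ≠ 1) (w1 : w ≠ 1)
    (v2 : v * v = 1) (h : w ≠ v) : Nat.card V = 4 ∧ ∀ y ∈ V, y = 1 ∨ y = v ∨ y = w ∨ y = v * w := by
  have h1 : ({1, v, w, v * w} : Set Q).ncard = 4 := Set.ncard_eq_four.2 ⟨_, _, _, _, v1.symm, w1.symm,
    fun e => h (mul_left_cancel (e.symm.trans v2.symm)), h.symm, fun e => w1 (left_eq_mul.1 e),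
    fun e => v1 (right_eq_mul.1 e), rfl⟩
  have h2 : ({1, v, w, v * w} : Set Q) = V := Set.eq_of_subset_of_ncard_le (by
    rintro _ (rfl | rfl | rfl | rfl)
    exacts [one_mem V, hv, hw, mul_mem hv hw]) (by rw [h1]; exact hV)
  exact ⟨(congrArg Set.ncard h2).symm.trans h1, fun y hy => h2.ge hy⟩

theorem grp0 (hQ : IsPGroup 2 Q) (hE : ¬ 2 ∣ Nat.card E) {R : Subgroup Q} (hR : R.index ≤ 4)
    (hRE : ∀ e ∈ E, ∀ r ∈ R, e r = r) {α : MulAut Q} (hα : Nz E α) (hne : α ≠ 1) :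
    ∃ (V : Subgroup Q) (v : Q), Nat.card V = 4 ∧ v ∈ V ∧ v ≠ 1 ∧ v * v = 1 ∧ (∀ e ∈ E, e v = v → e = 1) ∧
      (∀ γ, Nz E γ → (∀ x, x⁻¹ * γ x ∈ V) ∧ ∃ e ∈ E, e (γ v) = v) ∧
      ∀ e ∈ E, e * α = α * e → ∀ u, α u = u → e u = u := by
  have := Fintype.ofFinite E
  set V := (nm E).ker with hV
  have a1 : ∀ z, (∀ e ∈ E, e z = z) → nm E z = z ^ Nat.card E := fun z hz => by
    rw [nm_apply, Finset.prod_congr rfl fun (e : E) _ => hz e e.2, Finset.prod_const, Finset.card_univ,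
      Nat.card_eq_fintype_card]
  have a2 : ∀ z : Q, ∃ m : ℕ, (z ^ Nat.card E) ^ m = z := fun z => by
    obtain ⟨k, hk⟩ := IsPGroup.iff_orderOf.1 hQ z
    exact exists_pow_eq_self_of_coprime (hk ▸ ((Nat.prime_two.coprime_iff_not_dvd.2 hE).symm.pow_right k))
  have a3 : ∀ x, ∃ z, (∀ e ∈ E, e z = z) ∧ z⁻¹ * x ∈ V := fun x => by
    obtain ⟨m, hm⟩ := a2 (nm E x)
    have h1 : ∀ e ∈ E, e (nm E x ^ m) = nm E x ^ m := fun e he => by rw [map_pow, nm_fix x e he]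
    refine ⟨_, h1, ?_⟩
    rw [MonoidHom.mem_ker, map_mul, map_inv, a1 _ h1, pow_right_comm, hm, inv_mul_cancel]
  have a4 : ∀ z ∈ V, (∀ e ∈ E, e z = z) → z = 1 := fun z hz h => by
    obtain ⟨m, hm⟩ := a2 z
    rw [← hm, ← a1 z h, show nm E z = 1 from hz, one_pow]
  have a5 : Nat.card V ≤ 4 := le_trans (Nat.card_le_card_of_injective (fun w : V => ((w : Q) : Q ⧸ R)) fun w w' h =>
    Subtype.ext (inv_mul_eq_one.1 (a4 _ (mul_mem (inv_mem w.2) w'.2) fun e he => hRE e he _ (QuotientGroup.eq.1 h)))) hR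
  have a6 : ∀ γ, Nz E γ → ∀ w ∈ V, γ w ∈ V := fun γ h w hw => (nm_nz h w).trans hw
  have a7 : ∀ γ, Nz E γ → (∀ w ∈ V, γ w = w) → γ = 1 := fun γ h h1 => MulEquiv.ext fun x => by
    obtain ⟨z, z1, z2⟩ := a3 x
    have h2 := h1 _ z2
    rwa [map_mul, map_inv, h.2 z z1, mul_right_inj] at h2
  have a8 : 2 ∣ Nat.card V := (hQ.to_subgroup V).card_eq_or_dvd.resolve_left fun h => hne (a7 α hα fun w hw => by
    rw [Subgroup.card_eq_one.1 h, Subgroup.mem_bot] at hw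
    rw [hw, map_one])
  obtain ⟨⟨v, hv⟩, h2⟩ := exists_prime_orderOf_dvd_card' 2 a8
  have v1 : v ≠ 1 := fun h => by
    rw [show (⟨v, hv⟩ : V) = 1 from Subtype.ext h, orderOf_one] at h2
    exact absurd h2 (by norm_num)
  have v2 : v * v = 1 := by
    rw [← pow_two, ← h2]
    exact congrArg Subtype.val (pow_orderOf_eq_one (⟨v, hv⟩ : V))
  obtain ⟨e₀, he₀, h0⟩ : ∃ e ∈ E, e v ≠ v := by
    by_contra h
    push Not at h
    exact v1 (a4 v hv h)
  have n1 : ∀ (γ : MulAut Q) {w : Q}, w ≠ 1 → γ w ≠ 1 := fun γ w hw h => hw ((map_eq_one_iff _ γ.injective).1 h)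
  have w0 := a6 e₀ (Nz.of_mem he₀) v hv
  obtain ⟨c4, b1⟩ := four_el a5 hv w0 v1 (n1 e₀ v1) v2 h0
  have w2 : e₀ v * e₀ v = 1 := by rw [← map_mul, v2, map_one]
  have b2 : e₀ (e₀ v) = v * e₀ v := by
    rcases b1 _ (a6 e₀ (Nz.of_mem he₀) _ w0) with h | h | h | h
    · exact absurd h (n1 e₀ (n1 e₀ v1))
    · exact absurd (odd_fix hE he₀ h) h0
    · exact absurd (e₀.injective h) h0
    · exact h
  refine ⟨V, v, c4, hv, v1, v2, fun e he h => a7 e (Nz.of_mem he) ?_, fun γ h => ⟨fun x => ?_, ?_⟩,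
    fun e he hc u hu => ?_⟩
  · have h1 : e (e₀ v) = e₀ v := by
      rcases b1 _ (a6 e (Nz.of_mem he) _ w0) with h1 | h1 | h1 | h1
      · exact absurd h1 (n1 e (n1 e₀ v1))
      · exact absurd (e.injective (h1.trans h.symm)) h0
      · exact h1
      · exact odd_fix hE he (by rw [h1, map_mul, h, h1, ← mul_assoc, v2, one_mul])
    intro w hw
    rcases b1 w hw with rfl | rfl | rfl | rfl
    exacts [map_one e, h, h1, by rw [map_mul, h, h1]]
  · rw [MonoidHom.mem_ker, map_mul, map_inv, nm_nz h, inv_mul_cancel]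
  · rcases b1 _ (a6 γ h v hv) with h1 | h1 | h1 | h1
    · exact absurd h1 (n1 γ v1)
    · exact ⟨1, one_mem E, h1⟩
    · exact ⟨e₀⁻¹, inv_mem he₀, by rw [h1, MulAut.inv_apply_self]⟩
    · exact ⟨e₀⁻¹ * e₀⁻¹, mul_mem (inv_mem he₀) (inv_mem he₀), by
        rw [h1, ← b2, MulAut.mul_apply, MulAut.inv_apply_self, MulAut.inv_apply_self]⟩
  · obtain ⟨z, z1, z2⟩ := a3 u
    have h1 : α (z⁻¹ * u) = z⁻¹ * u := by rw [map_mul, map_inv, hα.2 z z1, hu]
    suffices h : e (z⁻¹ * u) = z⁻¹ * u by rwa [map_mul, map_inv, z1 e he, mul_right_inj] at h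
    generalize z⁻¹ * u = w at z2 h1
    by_contra h3
    have h4 : w ≠ 1 := fun h => h3 (by rw [h, map_one])
    have h5 : w * w = 1 := by
      rcases b1 w z2 with rfl | rfl | rfl | rfl
      exacts [mul_one 1, v2, w2, by rw [mul_mul_mul_comm, v2, w2, mul_one]]
    have h6 : α (e w) = e w := by rw [← MulAut.mul_apply, ← hc, MulAut.mul_apply, h1]
    refine hne (a7 α hα fun y hy => ?_)
    rcases (four_el a5 z2 (a6 e (Nz.of_mem he) w z2) h4 (n1 e h4) h5 h3).2 y hy with rfl | rfl | rfl | rfl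
    exacts [map_one α, h1, h6, by rw [map_mul, h1, h6]]

end comm

/-- the structure of the defect group -/
theorem grp {Q : Type} [Group Q] [Finite Q] {E : Subgroup (MulAut Q)} (hc : ∀ x y : Q, x * y = y * x)
    (hQ : IsPGroup 2 Q) (hE : ¬ 2 ∣ Nat.card E) {R : Subgroup Q} (hR : R.index ≤ 4)
    (hRE : ∀ e ∈ E, ∀ r ∈ R, e r = r) {α : MulAut Q} (hα : Nz E α) (hne : α ≠ 1) :
    ∃ (L : Subgroup (Q →* ℂˣ)) (v : Q), Nat.card Q = 4 * Nat.card L ∧ (∀ l ∈ L, l v = 1) ∧ v ≠ 1 ∧ v * v = 1 ∧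
      (∀ e ∈ E, e v = v → e = 1) ∧ (∀ γ, Nz E γ → (∀ l ∈ L, ∀ x, l (γ x) = l x) ∧ ∃ e ∈ E, e (γ v) = v) ∧
      ∀ e ∈ E, e * α = α * e → ∀ u, α u = u → e u = u := by
  let _ : CommGroup Q := { (inferInstance : Group Q) with mul_comm := hc }
  obtain ⟨V, v, h1, h2, h3, h4, h5, h6, h7⟩ := grp0 hQ hE hR hRE hα hne
  refine ⟨ann V, v, ?_, fun l hl => hl v h2, h3, h4, h5, fun γ h => ⟨fun l hl x => ?_, (h6 γ h).2⟩, h7⟩
  · rw [card_ann fun x y => by simp, ← h1, Subgroup.card_mul_index]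
  · have h8 := hl _ ((h6 γ h).1 x)
    rwa [map_mul, map_inv, inv_mul_eq_one, eq_comm] at h8

end Cfsg.Agent.BH.V4
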